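import Cfsg.Agent.H17.OA.Core
import Cfsg.Agent.H72.AdjCoc
/-!
# Orthogonal groups: primes with cyclic centralisers (helper17)

`odd_card`, `plus_card`, `minus_card`: at most 2, 2, 3 pairwise independent primes with cyclic centralisers.
-/

set_option autoImplicit false
set_option linter.unusedSectionVars false

namespace Cfsg.Agent.H17.OA

open QuadraticMap Cfsg.Agent.LieClassical.OrthCore Cfsg.Agent.LieClassical.OrthForms
  Cfsg.Agent.H190.Exc Cfsg.Agent.H377 Cfsg.Agent.H72.AdjOrth Cfsg.Agent.H72.AdjCoc Cfsg.Agent.H403.Classify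

section

variable {F : Type*} [Field F] [Finite F]

theorem finrank_tot {n k : ℕ} :
    Module.finrank F ((Fin (2 * n) → F) × ((F × F) × (Fin (2 * k) → F))) = 2 * (n + (1 + k)) := by
  rw [Module.finrank_prod, Module.finrank_prod, Module.finrank_prod, Module.finrank_fin_fun, Module.finrank_fin_fun,
    Module.finrank_self]
  ring

/-- the total space, even dimension -/
theorem exists_even {r n m : ℕ} {ε δ : ℤ} (h : Elt F n ε r) (hε : ε = 1 ∨ ε = -1) (hδ : δ = 1 ∨ δ = -1)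
    (hn : n + 2 ≤ m) :
    ∃ (k : ℕ) (Q1 : QuadraticForm F (Fin (2 * n) → F)) (Q3 : QuadraticForm F (Fin (2 * k) → F))
      (g : Module.End F (Fin (2 * n) → F)), 1 ≤ k ∧ Nondeg Q1 ∧ Nondeg Q3 ∧ (∀ v, Q1 (g v) = Q1 v) ∧ orderOf g = r ∧
        n + (1 + k) = m ∧ HasSign (⇑(sumQ Q1 (sumQ (hypQ F) Q3))) m δ := by
  obtain ⟨-, Q1, g, hQ1, hs1, hg, ho⟩ := h
  obtain ⟨k, hk⟩ : ∃ k, n + (1 + k) = m := ⟨m - n - 1, by omega⟩
  obtain ⟨-, Q3, -, hQ3, hs3, -, -⟩ := elt_one_pm (F := F) (n := k) (by omega) (mul_pm hε hδ)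
  refine ⟨k, Q1, Q3, g, by omega, hQ1, hQ3, hg, ho, hk, ?_⟩
  have h1 := hs1.prod ((hasSign_mul (F := F)).prod hs3)
  rw [hk, one_mul, ← mul_assoc, sq_pm hε, one_mul] at h1
  exact h1

/-- **plus type** -/
theorem not_CC_plus {r n m : ℕ} {ε : ℤ} (hr : r.Prime) (hr2 : r ≠ 2) (h : Elt F n ε r) (hε : ε = 1 ∨ ε = -1)
    (hn : n + 2 ≤ m) (hm : 4 ≤ m) : ¬ CC (Cfsg.POmega F (Cfsg.quadFormPlus m F)) r := by
  obtain ⟨k, Q1, Q3, g, hk, hQ1, hQ3, hg, ho, hkm, hs⟩ := exists_even h hε (Or.inl rfl) hn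
  have : Nonempty (Fin (2 * k)) := ⟨⟨0, by omega⟩⟩
  have hfr := finrank_tot (F := F) (n := n) (k := k)
  rw [hkm] at hfr
  obtain ⟨e, he⟩ := exists_plus (by omega) hfr _ (sumQ_nondeg hQ1 (sumQ_nondeg hypQ_nondeg hQ3)) hs
  exact not_CC_of hQ1 hQ3 hg hr hr2 ho (by rw [hfr]; omega) one_ne_zero e (fun x => by rw [he, one_mul])

/-- **minus type** -/
theorem not_CC_minus {r n m : ℕ} {ε : ℤ} (hr : r.Prime) (hr2 : r ≠ 2) (h : Elt F n ε r) (hε : ε = 1 ∨ ε = -1)
    (hn : n + 2 ≤ m) (hm : 4 ≤ m) {a b : F}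
    (hab : ∀ z₁ z₂ : F, z₁ ^ 2 + a * z₁ * z₂ + b * z₂ ^ 2 = 0 → z₁ = 0 ∧ z₂ = 0) :
    ¬ CC (Cfsg.POmega F (Cfsg.quadFormMinus (m - 1) F a b)) r := by
  obtain ⟨k, Q1, Q3, g, hk, hQ1, hQ3, hg, ho, hkm, hs⟩ := exists_even h hε (Or.inr rfl) hn
  have : Nonempty (Fin (2 * k)) := ⟨⟨0, by omega⟩⟩
  have hfr := finrank_tot (F := F) (n := n) (k := k)
  rw [hkm] at hfr
  obtain ⟨e, he⟩ := exists_minus (by omega) hfr _ (sumQ_nondeg hQ1 (sumQ_nondeg hypQ_nondeg hQ3)) hs hab
  exact not_CC_of hQ1 hQ3 hg hr hr2 ho (by rw [hfr]; omega) one_ne_zero e (fun x => by rw [he, one_mul])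

/-- **odd dimension** -/
theorem not_CC_odd (h2 : (2 : F) ≠ 0) {r n m : ℕ} {ε : ℤ} (hr : r.Prime) (hr2 : r ≠ 2) (h : Elt F n ε r)
    (hn : n + 1 ≤ m) (hm : 3 ≤ m) : ¬ CC (Cfsg.POmega F (Cfsg.quadFormOdd m F)) r := by
  obtain ⟨-, Q1, g, hQ1, -, hg, ho⟩ := h
  obtain ⟨k, hk⟩ : ∃ k, n + (1 + k) = m := ⟨m - n - 1, by omega⟩
  obtain ⟨-, Q2, -, hQ2, -, -, -⟩ := elt_one (F := F) k
  let Q₁ : QuadraticForm F F := QuadraticMap.sq
  have hQ₁ : Nondeg Q₁ := by
    intro x hx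
    have h3 := hx 1
    simp only [polar, Q₁, QuadraticMap.sq_apply] at h3
    have h4 : 2 * x = 0 := by linear_combination h3
    exact (mul_eq_zero.1 h4).resolve_left h2
  have hQ3 : Nondeg (sumQ Q2 Q₁) := sumQ_nondeg hQ2 hQ₁
  have hfr : Module.finrank F ((Fin (2 * n) → F) × ((F × F) × ((Fin (2 * k) → F) × F))) = 2 * m + 1 := by
    rw [Module.finrank_prod, Module.finrank_prod, Module.finrank_prod, Module.finrank_prod, Module.finrank_fin_fun,
      Module.finrank_fin_fun, Module.finrank_self, ← hk]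
    ring
  obtain ⟨c, e, hc, he⟩ := exists_similar_odd hfr _ (sumQ_nondeg hQ1 (sumQ_nondeg hypQ_nondeg hQ3))
  refine not_CC_of hQ1 hQ3 hg hr hr2 ho (by rw [hfr]; omega) hc e (fun x => ?_)
  rw [he, coe_oddForm]

end

section Rows

variable {F : Type*} [Field F] [Fintype F] {m : ℕ} {ρ : Finset ℕ}

theorem wO_eq {r : ℕ} (hr2 : r ≠ 2) (h : ¬ r ∣ Nat.card F) : wO (Nat.card F) r = eta (ee (Nat.card F) r) := by
  rw [wO, if_neg]
  rw [not_or]
  exact ⟨hr2, h⟩

theorem wO_char {r : ℕ} (h : r ∣ Nat.card F) : wO (Nat.card F) r = 2 := by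
  rw [wO, if_pos (Or.inr h)]

/-- the injectivity of `ee` on `ρ` -/
theorem card_le_of_class {ρ : Finset ℕ} {f : ℕ → ℕ} {C : Finset ℕ} (h : ∀ r ∈ ρ, f r ∈ C)
    (hinj : ∀ r ∈ ρ, ∀ s ∈ ρ, r ≠ s → f r ≠ f s) : ρ.card ≤ C.card := by
  refine Finset.card_le_card_of_injOn f h ?_
  intro r hr s hs hrs
  by_contra hne
  exact hinj r hr s hs hne hrs

theorem eta_cases {k m : ℕ} (h : eta k = m) : (k = m ∧ ¬ Even m) ∨ (k = 2 * m) := by
  rw [eta] at h
  split_ifs at h with h1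
  · right
    obtain ⟨j, rfl⟩ := h1
    omega
  · left
    subst h
    exact ⟨rfl, h1⟩

/-- **odd dimension** -/
theorem odd_card (hm : 3 ≤ m) (h2 : (2 : F) ≠ 0) (h : Ind (Cfsg.POmega F (Cfsg.quadFormOdd m F)) ρ) : ρ.card ≤ 2 := by
  have key : ∀ r ∈ ρ, ¬ r ∣ Nat.card F ∧ eta (ee (Nat.card F) r) = m := by
    intro r hr
    have hrp := h.prime r hr
    have hr2 : r ≠ 2 := by have := h.ge r hr; omega
    obtain ⟨ε, -, hE⟩ := exists_elt_wO (F := F) hrp hr2
    have h1 : ¬ wO (Nat.card F) r + 1 ≤ m := fun hle => not_CC_odd h2 hrp hr2 hE hle hm (h.cc r hr)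
    have hnd : ¬ r ∣ Nat.card F := by
      intro hd
      rw [wO_char hd] at h1
      omega
    refine ⟨hnd, ?_⟩
    rw [wO_eq hr2 hnd] at h1
    have h3 := odd_class h2 hm hrp hnd (h.dvd r hr)
    omega
  have h1 : ρ.card ≤ ({m, 2 * m} : Finset ℕ).card := by
    refine card_le_of_class (f := fun r => ee (Nat.card F) r) (fun r hr => ?_) (fun r hr s hs hrs heq => ?_)
    · rw [Finset.mem_insert, Finset.mem_singleton]
      rcases eta_cases (key r hr).2 with h3 | h3
      · exact Or.inl h3.1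
      · exact Or.inr h3
    · have hr2 : r ≠ 2 := by have := h.ge r hr; omega
      have hs2 : s ≠ 2 := by have := h.ge s hs; omega
      exact h.not_adj hr hs hrs (odd_clq h2 hm (h.prime r hr) (h.prime s hs) hr2 hs2 hrs (key r hr).1 (key s hs).1 heq
        (key r hr).2.le)
  exact h1.trans (Finset.card_le_two)

/-- **plus type** -/
theorem plus_card (hm : 4 ≤ m) (h : Ind (Cfsg.POmega F (Cfsg.quadFormPlus m F)) ρ) : ρ.card ≤ 2 := by
  have key : ∀ r ∈ ρ, ¬ r ∣ Nat.card F ∧ (eta (ee (Nat.card F) r) = m - 1 ∨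
      (eta (ee (Nat.card F) r) = m ∧ sg (ee (Nat.card F) r) = 1)) := by
    intro r hr
    have hrp := h.prime r hr
    have hr2 : r ≠ 2 := by have := h.ge r hr; omega
    obtain ⟨ε, hε, hE⟩ := exists_elt_wO (F := F) hrp hr2
    have h1 : ¬ wO (Nat.card F) r + 2 ≤ m := fun hle => not_CC_plus hrp hr2 hE hε hle hm (h.cc r hr)
    have hnd : ¬ r ∣ Nat.card F := by
      intro hd
      rw [wO_char hd] at h1
      omega
    refine ⟨hnd, ?_⟩
    rw [wO_eq hr2 hnd] at h1
    rcases plus_class hm hrp hnd (h.dvd r hr) with h3 | h3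
    · left; omega
    · right; exact h3
  have h1 : ρ.card ≤ ({2 * (m - 1), if Even m then m - 1 else m} : Finset ℕ).card := by
    refine card_le_of_class (f := fun r => ee (Nat.card F) r) (fun r hr => ?_) (fun r hr s hs hrs heq => ?_)
    · rw [Finset.mem_insert, Finset.mem_singleton]
      rcases (key r hr).2 with h3 | ⟨h3, h4⟩
      · rcases eta_cases h3 with ⟨h5, h6⟩ | h5
        · right
          have : Even m := by
            rw [Nat.not_even_iff_odd] at h6
            obtain ⟨j, hj⟩ := h6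
            exact ⟨j + 1, by omega⟩
          rw [if_pos this]; exact h5
        · left; exact h5
      · rcases eta_cases h3 with ⟨h5, h6⟩ | h5
        · right
          rw [if_neg h6]; exact h5
        · exfalso
          rw [h5, sg, if_pos (even_two_mul m)] at h4
          exact absurd h4 (by decide)
    · have hr2 : r ≠ 2 := by have := h.ge r hr; omega
      have hs2 : s ≠ 2 := by have := h.ge s hs; omega
      refine h.not_adj hr hs hrs (plus_clq hm (h.prime r hr) (h.prime s hs) hr2 hs2 hrs (key r hr).1 (key s hs).1 heq ?_)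
      rcases (key r hr).2 with h3 | h3
      · left; omega
      · right; exact h3
  exact h1.trans (Finset.card_le_two)

/-- **minus type** -/
theorem minus_card (hm : 4 ≤ m) {a b : F} (hab : ∀ z₁ z₂ : F, z₁ ^ 2 + a * z₁ * z₂ + b * z₂ ^ 2 = 0 → z₁ = 0 ∧ z₂ = 0)
    (h : Ind (Cfsg.POmega F (Cfsg.quadFormMinus (m - 1) F a b)) ρ) :
    ρ.card ≤ 3 ∧ (3 ≤ ρ.card → Even m ∧ ∀ r ∈ ρ, orderOf ((Fintype.card F : ℕ) : ZMod r) = 2 * m ∨
      orderOf ((Fintype.card F : ℕ) : ZMod r) = 2 * m - 2 ∨ orderOf ((Fintype.card F : ℕ) : ZMod r) = m - 1) := by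
  have key : ∀ r ∈ ρ, ¬ r ∣ Nat.card F ∧ (eta (ee (Nat.card F) r) = m - 1 ∨
      (eta (ee (Nat.card F) r) = m ∧ sg (ee (Nat.card F) r) = -1)) := by
    intro r hr
    have hrp := h.prime r hr
    have hr2 : r ≠ 2 := by have := h.ge r hr; omega
    obtain ⟨ε, hε, hE⟩ := exists_elt_wO (F := F) hrp hr2
    have h1 : ¬ wO (Nat.card F) r + 2 ≤ m := fun hle => not_CC_minus hrp hr2 hE hε hle hm hab (h.cc r hr)
    have hnd : ¬ r ∣ Nat.card F := by
      intro hd
      rw [wO_char hd] at h1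
      omega
    refine ⟨hnd, ?_⟩
    rw [wO_eq hr2 hnd] at h1
    rcases minus_class hm hab hrp hr2 hnd (h.dvd r hr) with h3 | h3
    · left; omega
    · right; exact h3
  have hcl : ∀ r ∈ ρ, ee (Nat.card F) r = 2 * m ∨ ee (Nat.card F) r = 2 * m - 2 ∨
      (Even m ∧ ee (Nat.card F) r = m - 1) := by
    intro r hr
    rcases (key r hr).2 with h3 | ⟨h3, h4⟩
    · rcases eta_cases h3 with ⟨h5, h6⟩ | h5
      · right; right
        refine ⟨?_, h5⟩
        rw [Nat.not_even_iff_odd] at h6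
        obtain ⟨j, hj⟩ := h6
        exact ⟨j + 1, by omega⟩
      · right; left; omega
    · rcases eta_cases h3 with ⟨h5, h6⟩ | h5
      · exfalso
        rw [h5, sg, if_neg h6] at h4
        exact absurd h4 (by decide)
      · left; exact h5
  have hinj : ∀ r ∈ ρ, ∀ s ∈ ρ, r ≠ s → ee (Nat.card F) r ≠ ee (Nat.card F) s := by
    intro r hr s hs hrs heq
    have hr2 : r ≠ 2 := by have := h.ge r hr; omega
    have hs2 : s ≠ 2 := by have := h.ge s hs; omega
    refine h.not_adj hr hs hrs (minus_clq hm hab (h.prime r hr) (h.prime s hs) hr2 hs2 hrs (key r hr).1 (key s hs).1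
      heq ?_)
    rcases (key r hr).2 with h3 | h3
    · left; omega
    · right; exact h3
  refine ⟨?_, fun h3 => ?_⟩
  · have h1 : ρ.card ≤ ({2 * m, 2 * m - 2, m - 1} : Finset ℕ).card := by
      refine card_le_of_class (f := fun r => ee (Nat.card F) r) (fun r hr => ?_) hinj
      rw [Finset.mem_insert, Finset.mem_insert, Finset.mem_singleton]
      rcases hcl r hr with h3 | h3 | h3
      · exact Or.inl h3
      · exact Or.inr (Or.inl h3)
      · exact Or.inr (Or.inr h3.2)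
    exact h1.trans Finset.card_le_three
  · have hev : Even m := by
      by_contra hno
      have h1 : ρ.card ≤ ({2 * m, 2 * m - 2} : Finset ℕ).card := by
        refine card_le_of_class (f := fun r => ee (Nat.card F) r) (fun r hr => ?_) hinj
        rw [Finset.mem_insert, Finset.mem_singleton]
        rcases hcl r hr with h4 | h4 | h4
        · exact Or.inl h4
        · exact Or.inr h4
        · exact absurd h4.1 hno
      have h4 := h1.trans Finset.card_le_two
      omega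
    refine ⟨hev, fun r hr => ?_⟩
    have h1 := hcl r hr
    rw [ee, Nat.card_eq_fintype_card] at h1
    rcases h1 with h1 | h1 | h1
    · exact Or.inl h1
    · exact Or.inr (Or.inl h1)
    · exact Or.inr (Or.inr h1.2)

end Rows

end Cfsg.Agent.H17.OA
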